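import Cfsg.Agent.Chev.BorelTits.Optimal
import Cfsg.Agent.Chev.Parabolic
import Cfsg.Agent.PCore.Basic
import Mathlib.Topology.Order.Compact
import Mathlib.Analysis.SpecialFunctions.Sqrt

/-!
# The Borel–Tits theorem for Chevalley groups
-/

set_option autoImplicit false
set_option linter.unusedSectionVars false

namespace CfsgLib.Chev.Sys

open Cfsg.Lie Matrix

universe u

variable {D : ChevalleyDatum} (S : Sys.{u} D) {F : Type u} [Field F]

/-- The functional of a point. -/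
def evalFun (x : Fin D.rank → ℝ) (s : Fin D.nroots) : ℝ := ∑ i : Fin D.rank, (S.rv s i : ℝ) * x i

theorem lin_evalFun (x : Fin D.rank → ℝ) : S.IsLin (S.evalFun x) :=
  ⟨{ toFun := fun v => ∑ i : Fin D.rank, (v i : ℝ) * x i
     map_zero' := by simp
     map_add' := fun a b => by simp [add_mul, Finset.sum_add_distrib] }, fun _ => rfl⟩

theorem evalFun_sr (x : Fin D.rank → ℝ) (j : Fin D.rank) : S.evalFun x (S.sr j) = x j := by
  rw [evalFun, S.rv_sr, Finset.sum_eq_single j] <;> simp +contextual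

/-- A maximiser exists. -/
theorem exists_optimal (h0 : 0 < D.rank) {R : Subgroup (GL D.Idx F)} [Finite F] (hne : R ≠ ⊥)
    (hR : ∃ g ∈ D.group F, ∀ y ∈ R, g⁻¹ * y * g ∈ D.posUnipotent F) :
    ∃ g φ c, 0 < c ∧ S.Admit R g φ c ∧ ∀ g' φ' c', S.Admit R g' φ' c' → c' ≤ c := by
  classical
  haveI := finite_GL (D := D) (F := F)
  haveI : Fintype (GL D.Idx F) := Fintype.ofFinite _
  -- the finitely many candidates
  set T : Finset (GL D.Idx F × Finset (Fin D.nroots)) := Finset.univ.filter fun p =>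
    p.1 ∈ D.group F ∧ p.2.Nonempty ∧
      ∀ y ∈ R, p.1⁻¹ * y * p.1 ∈ S.genBy F (fun r => ∃ h : r < D.nroots, (⟨r, h⟩ : Fin D.nroots) ∈ p.2)
    with hT
  set K : Set (Fin D.rank → ℝ) := {x | (∀ i, 0 ≤ x i) ∧ ∑ s, S.evalFun x s ^ 2 = 1} with hK
  have hcont : ∀ s, Continuous fun x => S.evalFun x s := fun s => by unfold evalFun; fun_prop
  have hKc : IsCompact K := by
    refine (isCompact_Icc (a := (0 : Fin D.rank → ℝ)) (b := 1)).of_isClosed_subset ?_ ?_
    · have h1 : IsClosed {x : Fin D.rank → ℝ | ∀ i, 0 ≤ x i} := by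
        rw [Set.ofPred_forall]
        exact isClosed_iInter fun i => isClosed_le continuous_const (continuous_apply i)
      exact h1.inter (isClosed_eq (continuous_finsetSum _ fun s _ => (hcont s).pow 2) continuous_const)
    · intro x hx
      refine ⟨fun i => hx.1 i, fun i => ?_⟩
      show x i ≤ 1
      have h1 : x i ^ 2 ≤ 1 := by
        rw [← hx.2, ← S.evalFun_sr x i]
        exact Finset.single_le_sum (f := fun s => S.evalFun x s ^ 2) (fun s _ => sq_nonneg _) (Finset.mem_univ _)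
      nlinarith [hx.1 i]
  -- a first point
  set o : Fin D.rank → ℝ := fun _ => 1 with ho
  have hopos : ∀ s, S.Pos s → 0 < S.evalFun o s := by
    intro s hs
    have h1 := S.rv_nonneg hs
    obtain ⟨i, hi⟩ : ∃ i, S.rv s i ≠ 0 := by
      by_contra h
      push Not at h
      have := (S.lev_pos_iff s).1 hs
      rw [← lv_rv, show S.rv s = 0 from funext h, map_zero] at this
      exact lt_irrefl _ this
    have hi' : (1 : ℤ) ≤ S.rv s i := lt_of_le_of_ne (h1 i) (Ne.symm hi)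
    calc (0 : ℝ) < (S.rv s i : ℝ) * o i := by
          simp only [ho, mul_one]; exact_mod_cast hi'
      _ ≤ S.evalFun o s := Finset.single_le_sum (f := fun j => (S.rv s j : ℝ) * o j)
          (fun j _ => by simp only [ho, mul_one]; exact_mod_cast h1 j) (Finset.mem_univ i)
  have hsig : 0 < ∑ s, S.evalFun o s ^ 2 :=
    Finset.sum_pos' (fun s _ => sq_nonneg _) ⟨S.sr ⟨0, h0⟩, Finset.mem_univ _, by
      have := hopos _ (S.sr_pos ⟨0, h0⟩); positivity⟩
  set x₀ : Fin D.rank → ℝ := fun i => (Real.sqrt (∑ s, S.evalFun o s ^ 2))⁻¹ * o i with hx₀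
  have hev : ∀ s, S.evalFun x₀ s = (Real.sqrt (∑ s, S.evalFun o s ^ 2))⁻¹ * S.evalFun o s := fun s => by
    simp only [evalFun, hx₀, Finset.mul_sum]
    exact Finset.sum_congr rfl fun i _ => by ring
  have hx₀K : x₀ ∈ K := by
    refine ⟨fun i => mul_nonneg (inv_nonneg.2 (Real.sqrt_nonneg _)) (by simp [ho]), ?_⟩
    simp only [hev, mul_pow, ← Finset.mul_sum]
    rw [inv_pow, Real.sq_sqrt hsig.le, inv_mul_cancel₀ hsig.ne']
  obtain ⟨g₀, hg₀, hR₀⟩ := hR
  have hposne : (posSet (D := D)).Nonempty := ⟨S.sr ⟨0, h0⟩, Finset.mem_filter.2 ⟨Finset.mem_univ _, S.sr_pos _⟩⟩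
  have hp₀ : (g₀, posSet (D := D)) ∈ T := by
    refine Finset.mem_filter.2 ⟨Finset.mem_univ _, hg₀, hposne, fun y hy => ?_⟩
    have h := hR₀ y hy
    rw [S.posUnipotent_eq] at h
    obtain ⟨a, ha, b, hb, e⟩ := S.exists_split
      (fun r => ∃ h : r < D.nroots, (⟨r, h⟩ : Fin D.nroots) ∈ posSet (D := D)) le_rfl h
    have hb' : b = 1 := by
      have : S.genBy F (fun r => ¬ ∃ h : r < D.nroots, (⟨r, h⟩ : Fin D.nroots) ∈ posSet (D := D)) ≤ ⊥ :=
        S.genBy_le fun r h1 h2 h3 _ => absurd ⟨h2, Finset.mem_filter.2 ⟨Finset.mem_univ _, h1⟩⟩ h3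
      exact Subgroup.mem_bot.1 (this hb)
    rw [e, hb', mul_one]
    exact ha
  -- maximise on each candidate
  have hmaxp : ∀ p : GL D.Idx F × Finset (Fin D.nroots), ∃ x ∈ K, ∀ (h : p.2.Nonempty), ∀ y ∈ K,
      p.2.inf' h (S.evalFun y) ≤ p.2.inf' h (S.evalFun x) := by
    intro p
    by_cases h : p.2.Nonempty
    · obtain ⟨x, hx, hm⟩ := hKc.exists_isMaxOn ⟨x₀, hx₀K⟩
        (Continuous.finset_inf'_apply h fun s _ => hcont s).continuousOn
      exact ⟨x, hx, fun _ y hy => hm hy⟩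
    · exact ⟨x₀, hx₀K, fun h' => absurd h' h⟩
  choose xp hxpK hxp using hmaxp
  obtain ⟨p, hp, hpmax⟩ := Finset.exists_max_image T.attach
    (fun p => p.1.2.inf' (Finset.mem_filter.1 p.2).2.2.1 (S.evalFun (xp p.1))) ⟨⟨_, hp₀⟩, Finset.mem_attach _ _⟩
  obtain ⟨hpg, hpne, hpR⟩ := (Finset.mem_filter.1 p.2).2
  set c := p.1.2.inf' hpne (S.evalFun (xp p.1)) with hc
  have hcpos : 0 < c := by
    refine lt_of_lt_of_le ?_ (hpmax ⟨_, hp₀⟩ (Finset.mem_attach _ _))
    refine lt_of_lt_of_le ?_ (hxp (g₀, posSet (D := D)) hposne x₀ hx₀K)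
    rw [Finset.lt_inf'_iff]
    intro s hs
    rw [hev]
    exact mul_pos (inv_pos.2 (Real.sqrt_pos.2 hsig)) (hopos s (Finset.mem_filter.1 hs).2)
  refine ⟨p.1.1, S.evalFun (xp p.1), c, hcpos, ⟨hpg, ⟨S.lin_evalFun _, fun s hs => ?_, (hxpK p.1).2⟩,
    fun y hy => ?_⟩, ?_⟩
  · exact Finset.sum_nonneg fun i _ => mul_nonneg (by exact_mod_cast S.rv_nonneg hs i) ((hxpK p.1).1 i)
  · exact S.genBy_mono (fun r _ _ ⟨h, hm⟩ => ⟨h, Finset.inf'_le _ hm⟩) (hpR y hy)
  · intro g' φ' c' ⟨hg', ⟨hl', hd', hn'⟩, hR'⟩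
    by_contra hlt
    have hc' : 0 < c' := lt_trans hcpos (not_le.1 hlt)
    set x : Fin D.rank → ℝ := fun i => φ' (S.sr i) with hx
    have hxφ : ∀ s, S.evalFun x s = φ' s := fun s => by
      rw [S.lin_sum_simple hl' s]; rfl
    have hxK : x ∈ K := ⟨fun i => hd' _ (S.sr_pos i), by simp only [hxφ]; exact hn'⟩
    set A := (posSet (D := D)).filter fun s => c' ≤ φ' s with hA
    have hAne : A.Nonempty := by
      by_contra hA0
      rw [Finset.not_nonempty_iff_eq_empty] at hA0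
      refine hne ((Subgroup.eq_bot_iff_forall _).2 fun y hy => ?_)
      have hbot : S.genBy F (S.upSet φ' c') ≤ ⊥ := S.genBy_le fun r h1 h2 ⟨_, h3⟩ _ => by
        have hm : (⟨r, h2⟩ : Fin D.nroots) ∈ A :=
          Finset.mem_filter.2 ⟨Finset.mem_filter.2 ⟨Finset.mem_univ _, h1⟩, h3⟩
        rw [hA0] at hm
        exact absurd hm (Finset.notMem_empty _)
      have := Subgroup.mem_bot.1 (hbot (hR' y hy))
      have h2 := congrArg (fun z => g' * z * g'⁻¹) this
      simpa [mul_assoc] using h2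
    have hmem : (g', A) ∈ T := Finset.mem_filter.2 ⟨Finset.mem_univ _, hg', hAne, fun y hy =>
      S.genBy_mono (fun r h1 h2 ⟨_, h3⟩ => ⟨h2, Finset.mem_filter.2
        ⟨Finset.mem_filter.2 ⟨Finset.mem_univ _, h1⟩, h3⟩⟩) (hR' y hy)⟩
    have h1 : c' ≤ A.inf' hAne (S.evalFun x) := Finset.le_inf' _ _ fun s hs => by
      rw [hxφ]; exact (Finset.mem_filter.1 hs).2
    exact hlt (h1.trans ((hxp (g', A) hAne x hxK).trans (hpmax ⟨_, hmem⟩ (Finset.mem_attach _ _))))

variable [Finite F]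

include S in
/-- A `p`-subgroup of the group has a translate in `U`. -/
theorem exists_translate_pos (p : ℕ) [Fact p.Prime] [CharP F p] {R : Subgroup (GL D.Idx F)}
    (hRG : R ≤ D.group F) (hR : IsPGroup p R) :
    ∃ g ∈ D.group F, ∀ y ∈ R, g⁻¹ * y * g ∈ D.posUnipotent F := by
  haveI := finite_GL (D := D) (F := F)
  haveI : Fintype F := Fintype.ofFinite F
  obtain ⟨k, -, hk⟩ := FiniteField.card F p
  have hU : IsPGroup p ((D.posUnipotent F).subgroupOf (D.group F)) :=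
    IsPGroup.of_card (n := (k : ℕ) * (D.nroots / 2)) (by
      rw [Nat.card_congr (Subgroup.subgroupOfEquivOfLe S.pos_le_group).toEquiv, S.card_pos,
        Nat.card_eq_fintype_card, hk, pow_mul])
  set U : Sylow p (D.group F) := hU.toSylow (S.not_dvd_index_pos p) with hUdef
  obtain ⟨T, hT⟩ := (hR.of_equiv (Subgroup.subgroupOfEquivOfLe hRG).symm).exists_le_sylow
  obtain ⟨g, hg⟩ := MulAction.exists_smul_eq (D.group F) U T
  refine ⟨g, g.2, fun y hy => ?_⟩
  have h1 : (⟨y, hRG hy⟩ : D.group F) ∈ (T : Subgroup (D.group F)) := hT (Subgroup.mem_subgroupOf.2 hy)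
  rw [← hg, Sylow.coe_subgroup_smul, Subgroup.mem_pointwise_smul_iff_inv_smul_mem] at h1
  have h2 : (g⁻¹ * ⟨y, hRG hy⟩ * g : D.group F) ∈ (D.posUnipotent F).subgroupOf (D.group F) := by
    simpa [MulAut.conj_inv_apply, MulAut.smul_def, hUdef] using h1
  rw [Subgroup.mem_subgroupOf] at h2
  simpa using h2

include S in
/-- The Borel–Tits theorem. -/
theorem borel_tits (G : Geo D) (h0 : 0 < D.rank) (p : ℕ) [Fact p.Prime] [CharP F p]
    {R : Subgroup (GL D.Idx F)} (hRG : R ≤ D.group F) (hR : IsPGroup p R) (hne : R ≠ ⊥) :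
    ∃ g ∈ D.group F, ∃ J : Set ℕ, (∃ i, i < D.rank ∧ i ∉ J) ∧
      Subgroup.normalizer (R : Set (GL D.Idx F)) ⊓ D.group F ≤
        (D.parabolicSubgroup F J).map (MulAut.conj g).toMonoidHom ∧
      R ≤ (D.unipotentRadical F J).map (MulAut.conj g).toMonoidHom := by
  obtain ⟨g, φ, c, hc, hadm, hmax⟩ := S.exists_optimal h0 hne (S.exists_translate_pos p hRG hR)
  obtain ⟨hg, ⟨hl, hd, hn⟩, hgR⟩ := hadm
  refine ⟨g, hg, S.zeroSet φ, ?_, fun x hx => ?_, fun y hy => ?_⟩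
  · by_contra h
    push Not at h
    have hz : ∀ s, φ s = 0 := fun s => by
      rw [S.lin_sum_simple hl s]
      refine Finset.sum_eq_zero fun i _ => ?_
      obtain ⟨_, hi⟩ := h i i.2
      rw [hi, mul_zero]
    simp [hz] at hn
  · obtain ⟨hxN, hxG⟩ := Subgroup.mem_inf.1 hx
    have hadm' : S.Admit R (x * g) φ c := ⟨mul_mem hxG hg, ⟨hl, hd, hn⟩, fun y hy => by
      have := hgR _ ((Subgroup.mem_normalizer_iff.1 (inv_mem hxN) y).1 hy)
      rwa [show g⁻¹ * (x⁻¹ * y * x⁻¹⁻¹) * g = (x * g)⁻¹ * y * (x * g) by group] at this⟩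
    refine Subgroup.mem_map.2 ⟨_, S.admit_unique hc hmax ⟨hg, ⟨hl, hd, hn⟩, hgR⟩ hadm', ?_⟩
    show g * (g⁻¹ * (x * g)) * g⁻¹ = x
    group
  · refine Subgroup.mem_map.2 ⟨g⁻¹ * y * g, ?_, by show g * (g⁻¹ * y * g) * g⁻¹ = y; group⟩
    rw [S.unipotentRadical_eq G]
    refine S.genBy_mono (fun r _ _ hr hJ => ?_) (hgR y hy)
    obtain ⟨h2, h3⟩ := hr
    have : φ ⟨r, h2⟩ = 0 := by
      rw [S.lin_sum_simple hl]
      refine Finset.sum_eq_zero fun i _ => ?_
      by_cases hi : (i : ℕ) ∈ S.zeroSet φ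
      · obtain ⟨_, hi'⟩ := hi
        rw [hi', mul_zero]
      · rw [show S.vec r i = 0 from hJ.2 i i.2 hi]; simp
    linarith

end CfsgLib.Chev.Sys
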