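import Cfsg.Agent.Chev.BorelTits.Closed
import Cfsg.Agent.Chev.Parabolic
import Cfsg.Agent.Chev.WeylCombi
import Cfsg.Agent.Chev.BN

/-!
# The optimal functional of a unipotent subgroup

For a subgroup `R` of `U` one maximises `c` over the linear functionals `φ` of norm one that are
non-negative on positive roots and the translates with `g⁻¹ R g ≤ ⟨X_r : φ r ≥ c⟩`.  By convexity
the maximiser is unique up to the parabolic subgroup of `φ`, which therefore contains the normaliser.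
-/

set_option autoImplicit false
set_option linter.unusedSectionVars false

namespace CfsgLib.Chev.Sys

open Cfsg.Lie Matrix

universe u

variable {D : ChevalleyDatum} (S : Sys.{u} D)

/-- A linear function on roots. -/
def IsLin (φ : Fin D.nroots → ℝ) : Prop := ∃ ψ : (Fin D.rank → ℤ) →+ ℝ, ∀ s, φ s = ψ (S.rv s)

/-- Linear, non-negative on positive roots, of norm one. -/
def IsUnitDom (φ : Fin D.nroots → ℝ) : Prop :=
  S.IsLin φ ∧ (∀ s, S.Pos s → 0 ≤ φ s) ∧ ∑ s, φ s ^ 2 = 1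

/-- The roots where `φ` is at least `c`. -/
def upSet (_S : Sys.{u} D) (φ : Fin D.nroots → ℝ) (c : ℝ) (r : ℕ) : Prop :=
  ∃ h : r < D.nroots, c ≤ φ ⟨r, h⟩

/-- The fundamental roots on which `φ` vanishes. -/
def zeroSet (φ : Fin D.nroots → ℝ) : Set ℕ := {i | ∃ h : i < D.rank, φ (S.sr ⟨i, h⟩) = 0}

theorem lin_weyl {φ : Fin D.nroots → ℝ} (h : S.IsLin φ) {w : Equiv.Perm (Fin D.nroots)}
    (hw : w ∈ S.weyl) : S.IsLin fun s => φ (w s) := by
  obtain ⟨L, -, rfl⟩ := S.exists_wprod hw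
  obtain ⟨ψ, hψ⟩ := h
  exact ⟨ψ.comp (S.Lw L).toAddMonoidHom, fun s => by beta_reduce; rw [hψ, S.rv_wprod]; rfl⟩

theorem lin_combi {φ : Fin D.nroots → ℝ} (h : S.IsLin φ) {r s v : ℕ} (hr : r < D.nroots)
    (hs : s < D.nroots) (hv : v < D.nroots) {i j : ℤ}
    (he : ∀ a < D.rank, S.vec v a = i * S.vec r a + j * S.vec s a) :
    φ ⟨v, hv⟩ = i * φ ⟨r, hr⟩ + j * φ ⟨s, hs⟩ := by
  obtain ⟨ψ, hψ⟩ := h
  have e : S.rv ⟨v, hv⟩ = i • S.rv ⟨r, hr⟩ + j • S.rv ⟨s, hs⟩ := funext fun a => by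
    simpa [rv] using he a a.2
  rw [hψ, hψ, hψ, e, map_add, map_zsmul, map_zsmul, zsmul_eq_mul, zsmul_eq_mul]

theorem lin_neg {φ : Fin D.nroots → ℝ} (h : S.IsLin φ) (s t : Fin D.nroots) (ht : (t : ℕ) = D.neg s) :
    φ t = - φ s := by
  obtain ⟨ψ, hψ⟩ := h
  have e : S.rv t = - S.rv s := funext fun a => by
    show S.vec t a = - S.vec s a
    rw [ht, S.vec_neg s s.2 a a.2]
  rw [hψ, hψ, e, map_neg]

theorem lin_sum_simple {φ : Fin D.nroots → ℝ} (h : S.IsLin φ) (s : Fin D.nroots) :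
    φ s = ∑ i : Fin D.rank, (S.vec s i : ℝ) * φ (S.sr i) := by
  obtain ⟨ψ, hψ⟩ := h
  have e : S.rv s = ∑ i : Fin D.rank, (S.vec s i) • Pi.single i (1 : ℤ) := by
    funext a
    simp [rv, Pi.single_apply, Finset.sum_apply]
  rw [hψ, e, map_sum]
  exact Finset.sum_congr rfl fun i _ => by rw [map_zsmul, zsmul_eq_mul, hψ, S.rv_sr]

theorem dom_neg {φ : Fin D.nroots → ℝ} (h : S.IsLin φ) (hd : ∀ s, S.Pos s → 0 ≤ φ s)
    {s : Fin D.nroots} (hs : ¬ S.Pos s) : φ s ≤ 0 := by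
  have hn : D.neg s < D.nroots := S.neg_lt s.2
  have e := S.lin_neg h s ⟨_, hn⟩ rfl
  have hp : S.Pos ⟨_, hn⟩ := by
    show D.nroots / 2 ≤ D.neg s
    rw [S.neg_eq _ s.2]
    have := S.even_nroots
    have := not_le.1 hs
    omega
  have := hd _ hp
  linarith

theorem closed_upSet {φ : Fin D.nroots → ℝ} (h : S.IsLin φ) {c : ℝ} (hc : 0 ≤ c) :
    S.IsClosedRootSet (S.upSet φ c) := by
  rintro r s v - hr - hs - hv ⟨_, h1⟩ ⟨_, h2⟩ ⟨i, j, hi, hj, he⟩
  refine ⟨hv, ?_⟩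
  rw [S.lin_combi h hr hs hv he]
  have hi' : (1 : ℝ) ≤ i := by exact_mod_cast hi
  have hj' : (1 : ℝ) ≤ j := by exact_mod_cast hj
  nlinarith

theorem closed_and {P Q : ℕ → Prop} (hP : S.IsClosedRootSet P) (hQ : S.IsClosedRootSet Q) :
    S.IsClosedRootSet fun r => P r ∧ Q r :=
  fun r s v a b c d e f g g' he => ⟨hP r s v a b c d e f g.1 g'.1 he, hQ r s v a b c d e f g.2 g'.2 he⟩

theorem closed_posImage {w : Equiv.Perm (Fin D.nroots)} (hw : w ∈ S.weyl) :
    S.IsClosedRootSet fun r => ∃ h : r < D.nroots, S.Pos (w ⟨r, h⟩) := by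
  have hl : S.IsLin fun s => (S.lev s : ℝ) := by
    refine ⟨(Int.castAddHom ℝ).comp S.lv.toAddMonoidHom, fun s => ?_⟩
    show (S.lev s : ℝ) = ((S.lv (S.rv s) : ℤ) : ℝ)
    rw [S.lv_rv]
  have hl' := S.lin_weyl hl hw
  rintro r s v - hr - hs - hv ⟨_, h1⟩ ⟨_, h2⟩ ⟨i, j, hi, hj, he⟩
  refine ⟨hv, ?_⟩
  rw [S.lev_pos_iff] at h1 h2 ⊢
  have e := S.lin_combi hl' hr hs hv he
  have hi' : (1 : ℝ) ≤ i := by exact_mod_cast hi
  have hj' : (1 : ℝ) ≤ j := by exact_mod_cast hj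
  have h1' : (1 : ℝ) ≤ (S.lev (w ⟨r, hr⟩ : Fin D.nroots) : ℝ) := by exact_mod_cast h1
  have h2' : (1 : ℝ) ≤ (S.lev (w ⟨s, hs⟩ : Fin D.nroots) : ℝ) := by exact_mod_cast h2
  exact_mod_cast (show (0 : ℝ) < (S.lev (w ⟨v, hv⟩ : Fin D.nroots) : ℝ) by rw [show (S.lev (w ⟨v, hv⟩ : Fin D.nroots) : ℝ) = _ from e]; nlinarith)

variable {F : Type u} [Field F]

theorem borel_conj_upSet {φ : Fin D.nroots → ℝ} (h : S.IsLin φ) (hd : ∀ s, S.Pos s → 0 ≤ φ s) {c : ℝ}
    (hc : 0 ≤ c) {b y : GL D.Idx F} (hb : b ∈ D.borelSubgroup F) (hy : y ∈ S.genBy F (S.upSet φ c)) :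
    b * y * b⁻¹ ∈ S.genBy F (S.upSet φ c) := by
  have hU : ∀ u ∈ D.posUnipotent F, ∀ y ∈ S.genBy F (S.upSet φ c), u * y * u⁻¹ ∈ S.genBy F (S.upSet φ c) := by
    intro u hu
    rw [S.posUnipotent_eq] at hu
    have gen : ∀ (r : ℕ) (t : F), D.nroots / 2 ≤ r → r < D.nroots →
        ∀ y ∈ S.genBy F (S.upSet φ c), S.xU r t * y * (S.xU r t)⁻¹ ∈ S.genBy F (S.upSet φ c) := by
      intro r t h1 h2 y hy
      have : S.genBy F (S.upSet φ c) ≤
          (S.genBy F (S.upSet φ c)).comap (MulAut.conj (S.xU r t)).toMonoidHom :=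
        S.genBy_le fun s hs1 hs2 hs3 v => by
          show S.xU r t * S.xU s v * (S.xU r t)⁻¹ ∈ S.genBy F (S.upSet φ c)
          by_cases hne : s = r
          · subst hne
            rw [S.xU_inv, S.xU_add, S.xU_add, add_neg_cancel_comm]
            exact S.xU_mem_genBy hs1 hs2 hs3 v
          rw [S.xU_inv, mul_assoc, S.comm_wU h2 hs2 hne (S.pos_ne_neg h2 h1 hs1), ← mul_assoc,
            ← mul_assoc, S.xU_add, add_neg_cancel, S.xU_zero, one_mul]
          refine Subgroup.mul_mem _ (S.xU_mem_genBy hs1 hs2 hs3 v) ?_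
          rw [wU]
          refine Subgroup.list_prod_mem _ fun x hx => ?_
          obtain ⟨d, hd', rfl⟩ := List.mem_map.1 hx
          obtain ⟨g1, -, g3⟩ := S.commWord_gt h2 hs2 h1 hs1 hd'
          simp only [ChevalleyDatum.commWord, List.mem_map] at hd'
          obtain ⟨d', hd'', rfl⟩ := hd'
          obtain ⟨-, i, j, hi, hj, hvec⟩ := S.commTerms_vec h2 hs2 hd''
          dsimp only at g1 g3 ⊢
          refine S.xU_mem_genBy (by omega) g3 ⟨g3, ?_⟩ _
          rw [S.lin_combi h h2 hs2 g3 hvec]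
          obtain ⟨_, hcs⟩ := hs3
          have hr0 := hd ⟨r, h2⟩ h1
          have hi' : (1 : ℝ) ≤ i := by exact_mod_cast hi
          have hj' : (1 : ℝ) ≤ j := by exact_mod_cast hj
          nlinarith
      exact this hy
    induction hu using Subgroup.closure_induction'' with
    | mem x hx => obtain ⟨r, t, h1, h2, rfl⟩ := hx; exact gen r t h1 h2
    | inv_mem x hx =>
      obtain ⟨r, t, h1, h2, rfl⟩ := hx
      rw [S.xU_inv]; exact gen r (-t) h1 h2
    | one => simp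
    | mul a a' _ _ ha ha' =>
      intro y hy
      have := ha _ (ha' y hy)
      rwa [show a * (a' * y * a'⁻¹) * a⁻¹ = a * a' * y * (a * a')⁻¹ by group] at this
  obtain ⟨u, hu, h', hh', rfl⟩ := S.mem_borel_iff.1 hb
  have := hU u hu _ (S.diag_conj_genBy _ hh' hy)
  rwa [show u * (h' * y * h'⁻¹) * u⁻¹ = u * h' * y * (u * h')⁻¹ by group] at this

theorem conj_genBy_acts {n : GL D.Idx F} {w : Equiv.Perm (Fin D.nroots)} (hw : S.Acts n w)
    {P Q : ℕ → Prop}
    (h : ∀ r : Fin D.nroots, S.Pos r → P r → S.Pos (w r) ∧ Q (w r : Fin D.nroots))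
    {y : GL D.Idx F} (hy : y ∈ S.genBy F P) : n * y * n⁻¹ ∈ S.genBy F Q := by
  have : S.genBy F P ≤ (S.genBy F Q).comap (MulAut.conj n).toMonoidHom :=
    S.genBy_le fun r h1 h2 h3 t => by
      show n * S.xU r t * n⁻¹ ∈ S.genBy F Q
      obtain ⟨c, hc⟩ := hw ⟨r, h2⟩
      rw [hc t]
      obtain ⟨g1, g2⟩ := h ⟨r, h2⟩ h1 h3
      exact S.xU_mem_genBy g1 (Fin.is_lt _) g2 _
  exact this hy

theorem acts_inv_mono {n : GL D.Idx F} (hn : n ∈ D.monomialSubgroup F) {w : Equiv.Perm (Fin D.nroots)}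
    (hw : S.Acts n w) : S.Acts n⁻¹ w⁻¹ := by
  obtain ⟨v, -, hv⟩ := S.exists_acts (Subgroup.inv_mem _ hn)
  have h1 : w * v = 1 := S.acts_unique (S.acts_mul hw hv) (by
    rw [mul_inv_cancel]; exact S.acts_diag (Subgroup.one_mem _))
  rwa [← eq_inv_of_mul_eq_one_right h1]

/-- The intersection of `U` with a translate of `U` by `N`. -/
theorem mem_posImage {n : GL D.Idx F} (hn : n ∈ D.monomialSubgroup F) {w : Equiv.Perm (Fin D.nroots)}
    (hw : S.Acts n w) {y : GL D.Idx F} (hy : y ∈ D.posUnipotent F)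
    (hy' : n * y * n⁻¹ ∈ D.posUnipotent F) :
    y ∈ S.genBy F (fun r => ∃ h : r < D.nroots, S.Pos (w ⟨r, h⟩)) := by
  rw [S.posUnipotent_eq] at hy
  obtain ⟨a, ha, b, hb, rfl⟩ := S.exists_split (fun r => ∃ h : r < D.nroots, S.Pos (w ⟨r, h⟩)) le_rfl hy
  have haU : n * a * n⁻¹ ∈ D.posUnipotent F := by
    rw [S.posUnipotent_eq]
    have := S.conj_genBy_acts hw (P := fun r => ∃ h : r < D.nroots, S.Pos (w ⟨r, h⟩))
      (Q := fun _ => True) (fun r _ h => ⟨h.2, trivial⟩) ha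
    rw [← S.posUnipotent_eq]
    exact S.genBy_le_pos _ this
  have hbV : n * b * n⁻¹ ∈ D.negUnipotent F := by
    have : S.genBy F (fun r => ¬ ∃ h : r < D.nroots, S.Pos (w ⟨r, h⟩)) ≤
        (D.negUnipotent F).comap (MulAut.conj n).toMonoidHom :=
      S.genBy_le fun r h1 h2 h3 t => by
        show n * S.xU r t * n⁻¹ ∈ D.negUnipotent F
        obtain ⟨c, hc⟩ := hw ⟨r, h2⟩
        rw [hc t]
        exact Subgroup.subset_closure ⟨_, _, (S.isNeg_iff _).2 (not_le.1 fun h => h3 ⟨h2, h⟩), rfl⟩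
    exact this hb
  have h2 : n * b * n⁻¹ ∈ D.posUnipotent F ⊓ D.negUnipotent F :=
    Subgroup.mem_inf.2 ⟨by
      have := mul_mem (inv_mem haU) hy'
      rwa [show (n * a * n⁻¹)⁻¹ * (n * (a * b) * n⁻¹) = n * b * n⁻¹ by group] at this, hbV⟩
  rw [S.pos_inf_neg, Subgroup.mem_bot, mul_inv_eq_one, mul_eq_left] at h2
  rw [h2, mul_one]
  exact ha

/-- A Weyl group element carrying a dominant functional to another fixes it and lies in its parabolic. -/
theorem weyl_dominant : ∀ (L : List ℕ), (∀ q ∈ L, q < D.rank) → L.length = wlen (S.wprod L) →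
    ∀ φ φ' : Fin D.nroots → ℝ, S.IsLin φ → S.IsLin φ' → (∀ s, S.Pos s → 0 ≤ φ s) →
    (∀ s, S.Pos s → 0 ≤ φ' s) → (∀ s, φ (S.wprod L s) = φ' s) →
    φ' = φ ∧ ∀ q ∈ L, q ∈ S.zeroSet φ := by
  intro L
  induction L using List.reverseRecOn with
  | nil => intro _ _ φ φ' _ _ _ _ h; exact ⟨funext fun s => (h s).symm, by simp⟩
  | append_singleton M a ih =>
    intro hL hlen φ φ' hl hl' hd hd' h
    have ha : a < D.rank := hL a (by simp)
    have hM : ∀ q ∈ M, q < D.rank := fun q hq => hL q (by simp [hq])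
    have hs : S.wprod [a] = S.refl a := by simp [wprod]
    rw [wprod_append, hs, List.length_append, List.length_singleton] at hlen
    rw [wprod_append, hs] at h
    set i : Fin D.rank := ⟨a, ha⟩
    have hp : S.Pos (S.wprod M (S.sr i)) := by
      by_contra hp
      have := S.wlen_mul_refl_of_neg (S.wprod_mem_weyl M) (i := i) hp
      have := S.wlen_wprod_le hM
      simp only [i] at *
      omega
    have hMlen : M.length = wlen (S.wprod M) := by
      rw [S.wlen_mul_refl_of_pos (S.wprod_mem_weyl M) (i := i) hp] at hlen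
      omega
    have h0 : φ' (S.sr i) = 0 := by
      have hneg : φ (S.wprod M (S.refl a (S.sr i))) ≤ 0 := by
        refine S.dom_neg hl hd ?_
        have hn : (S.refl a (S.sr i) : ℕ) = D.neg (S.sr i) := by
          rw [S.refl_apply ha]; exact S.pi_simple a ha
        have hw := S.wprod_neg hM (S.sr i) (S.refl a (S.sr i)) hn
        intro hpn
        have h1 : D.nroots / 2 ≤ (S.wprod M (S.sr i) : ℕ) := hp
        have h2 : D.nroots / 2 ≤ (S.wprod M (S.refl a (S.sr i)) : ℕ) := hpn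
        rw [hw, S.neg_eq _ (Fin.is_lt _)] at h2
        have := S.even_nroots
        omega
      have e := h (S.sr i)
      rw [Equiv.Perm.mul_apply] at e
      have := hd' _ (S.sr_pos i)
      linarith
    have hfix : ∀ s, φ' (S.refl a s) = φ' s := by
      intro s
      obtain ⟨ψ, hψ⟩ := hl'
      rw [hψ] at h0
      rw [hψ, hψ, S.rv_refl, S.Rl_apply ha, map_sub, map_zsmul, zsmul_eq_mul, ← S.rv_sr i, h0,
        mul_zero, sub_zero]
    obtain ⟨e1, e2⟩ := ih hM hMlen φ φ' hl hl' hd hd' fun s => by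
      rw [← hfix s, ← h (S.refl a s), Equiv.Perm.mul_apply, ← Equiv.Perm.mul_apply (S.refl a),
        S.refl_mul_self, Equiv.Perm.one_apply]
    refine ⟨e1, fun q hq => ?_⟩
    rcases List.mem_append.1 hq with hq | hq
    · exact e2 q hq
    · rw [List.mem_singleton.1 hq]
      exact ⟨ha, by rw [← e1]; exact h0⟩

/-- Every linear functional has a dominant translate. -/
theorem exists_dominant {φ : Fin D.nroots → ℝ} (h : S.IsLin φ) :
    ∃ w ∈ S.weyl, ∀ s, S.Pos s → 0 ≤ φ (w s) := by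
  classical
  obtain ⟨w, hw, hmax⟩ := Finset.exists_max_image S.weylSet
    (fun w => ∑ s ∈ posSet (D := D), φ (w s)) ⟨1, S.mem_weylSet.2 S.weyl.one_mem⟩
  refine ⟨w, S.mem_weylSet.1 hw, ?_⟩
  have hsimple : ∀ i : Fin D.rank, 0 ≤ φ (w (S.sr i)) := by
    intro i
    by_contra hneg
    have hneg' := not_le.1 hneg
    have hle := hmax (w * S.refl i) (S.mem_weylSet.2 (mul_mem (S.mem_weylSet.1 hw) (S.refl_mem_weyl i)))
    have hmem : S.sr i ∈ posSet (D := D) := Finset.mem_filter.2 ⟨Finset.mem_univ _, S.sr_pos i⟩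
    have he : ∑ s ∈ (posSet (D := D)).erase (S.sr i), φ ((w * S.refl i) s) =
        ∑ s ∈ (posSet (D := D)).erase (S.sr i), φ (w s) := by
      refine Finset.sum_nbij' (fun s => S.refl i s) (fun s => S.refl i s) ?_ ?_ ?_ ?_ ?_
      · intro s hs
        obtain ⟨h1, h2⟩ := Finset.mem_erase.1 hs
        have h2' : S.Pos s := (Finset.mem_filter.1 h2).2
        refine Finset.mem_erase.2 ⟨fun e => ?_, Finset.mem_filter.2 ⟨Finset.mem_univ _, S.refl_pos i h2' h1⟩⟩
        have := S.refl_sr i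
        rw [← e, S.refl_refl] at this
        exact this h2'
      · intro s hs
        obtain ⟨h1, h2⟩ := Finset.mem_erase.1 hs
        have h2' : S.Pos s := (Finset.mem_filter.1 h2).2
        refine Finset.mem_erase.2 ⟨fun e => ?_, Finset.mem_filter.2 ⟨Finset.mem_univ _, S.refl_pos i h2' h1⟩⟩
        have := S.refl_sr i
        rw [← e, S.refl_refl] at this
        exact this h2'
      · exact fun s _ => S.refl_refl i s
      · exact fun s _ => S.refl_refl i s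
      · exact fun s _ => rfl
    have hn : φ ((w * S.refl i) (S.sr i)) = - φ (w (S.sr i)) := by
      refine S.lin_neg (φ := fun s => φ (w s)) (S.lin_weyl h (S.mem_weylSet.1 hw)) (S.sr i) _ ?_
      rw [S.refl_apply i.2]; exact S.pi_simple i i.2
    rw [← Finset.add_sum_erase _ _ hmem, ← Finset.add_sum_erase _ _ hmem, he, hn] at hle
    linarith
  intro s hs
  refine le_of_le_of_eq ?_ (S.lin_sum_simple (S.lin_weyl h (S.mem_weylSet.1 hw)) s).symm
  exact Finset.sum_nonneg fun i _ => mul_nonneg (by exact_mod_cast S.rv_nonneg hs i) (hsimple i)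

/-- An admissible translate for the bound `c`. -/
def Admit (R : Subgroup (GL D.Idx F)) (g : GL D.Idx F) (φ : Fin D.nroots → ℝ) (c : ℝ) : Prop :=
  g ∈ D.group F ∧ S.IsUnitDom φ ∧ ∀ y ∈ R, g⁻¹ * y * g ∈ S.genBy F (S.upSet φ c)

/-- Uniqueness of the maximiser. -/
theorem admit_unique {R : Subgroup (GL D.Idx F)} {c : ℝ} (hc : 0 < c)
    (hmax : ∀ g φ c', S.Admit R g φ c' → c' ≤ c) {g g' : GL D.Idx F} {φ φ' : Fin D.nroots → ℝ}
    (h : S.Admit R g φ c) (h' : S.Admit R g' φ' c) :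
    g⁻¹ * g' ∈ D.parabolicSubgroup F (S.zeroSet φ) := by
  classical
  obtain ⟨hg, ⟨hl, hd, hn⟩, hR⟩ := h
  obtain ⟨hg', ⟨hl', hd', hn'⟩, hR'⟩ := h'
  obtain ⟨b, hb, n, hnN, b', hb', e⟩ := S.exists_bnb (mul_mem (inv_mem hg) hg')
  obtain ⟨w, hwW, hw⟩ := S.exists_acts hnN
  have hw' := S.acts_inv_mono hnN hw
  set g₁ := g * b with hg₁
  have hg₁' : g' = g₁ * n * b' := by
    rw [hg₁, mul_assoc g b, mul_assoc g, ← e]; group
  set f : Fin D.nroots → ℝ := fun s => φ' (w⁻¹ s) with hf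
  have hlf : S.IsLin f := S.lin_weyl hl' (inv_mem hwW)
  set Cc : ℕ → Prop := fun r => S.upSet φ c r ∧ S.upSet f c r
  have hR₁ : ∀ y ∈ R, g₁⁻¹ * y * g₁ ∈ S.genBy F Cc := by
    intro y hy
    set y₁ := g₁⁻¹ * y * g₁ with hy₁
    have h1 : y₁ ∈ S.genBy F (S.upSet φ c) := by
      have := S.borel_conj_upSet hl hd hc.le (inv_mem hb) (hR y hy)
      rwa [show b⁻¹ * (g⁻¹ * y * g) * b⁻¹⁻¹ = y₁ by rw [hy₁, hg₁]; group] at this
    have h2 : n⁻¹ * y₁ * n ∈ S.genBy F (S.upSet φ' c) := by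
      have := S.borel_conj_upSet hl' hd' hc.le hb' (hR' y hy)
      rwa [show b' * (g'⁻¹ * y * g') * b'⁻¹ = n⁻¹ * y₁ * n by rw [hy₁, hg₁']; group] at this
    have h3 : y₁ ∈ S.genBy F (fun r => ∃ h : r < D.nroots, S.Pos (w⁻¹ ⟨r, h⟩)) := by
      refine S.mem_posImage (inv_mem hnN) hw' (S.genBy_le_pos _ h1) ?_
      rw [inv_inv]
      exact S.genBy_le_pos _ h2
    have h4 := S.genBy_inf_le (S.closed_upSet hl hc.le) (S.closed_posImage (inv_mem hwW))
      (Subgroup.mem_inf.2 ⟨h1, h3⟩)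
    set Q : ℕ → Prop := fun r => ∃ h : r < D.nroots, S.Pos (w ⟨r, h⟩) ∧ c ≤ φ (w ⟨r, h⟩) with hQ
    have h5 : n⁻¹ * y₁ * n ∈ S.genBy F Q := by
      have := S.conj_genBy_acts hw' (Q := Q) (fun r hr hP => by
        obtain ⟨⟨_, a1⟩, _, a2⟩ := hP
        refine ⟨a2, Fin.is_lt _, ?_, ?_⟩
        · show S.Pos (w ((w⁻¹) r))
          rw [← Equiv.Perm.mul_apply, mul_inv_cancel, Equiv.Perm.one_apply]; exact hr
        · show c ≤ φ (w ((w⁻¹) r))
          rw [← Equiv.Perm.mul_apply, mul_inv_cancel, Equiv.Perm.one_apply]; exact a1) h4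
      rwa [inv_inv] at this
    have hQc : S.IsClosedRootSet Q := by
      have h := S.closed_and (S.closed_posImage hwW) (S.closed_upSet (S.lin_weyl hl hwW) hc.le)
      intro r s v a1 a2 a3 a4 a5 a6 ⟨_, r1, r2⟩ ⟨_, s1, s2⟩ he
      obtain ⟨⟨_, v1⟩, _, v2⟩ := h r s v a1 a2 a3 a4 a5 a6 ⟨⟨a2, r1⟩, a2, r2⟩ ⟨⟨a4, s1⟩, a4, s2⟩ he
      exact ⟨a6, v1, v2⟩
    have h6 := S.genBy_inf_le hQc (S.closed_upSet hl' hc.le) (Subgroup.mem_inf.2 ⟨h5, h2⟩)
    have h7 := S.conj_genBy_acts hw (Q := Cc) (fun r hr hP => by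
      obtain ⟨⟨_, q1, q2⟩, _, q3⟩ := hP
      refine ⟨q1, ⟨Fin.is_lt _, q2⟩, Fin.is_lt _, ?_⟩
      show c ≤ φ' ((w⁻¹) (w r))
      rw [← Equiv.Perm.mul_apply, inv_mul_cancel, Equiv.Perm.one_apply]; exact q3) h6
    rwa [show n * (n⁻¹ * y₁ * n) * n⁻¹ = y₁ by group] at h7
  -- convexity forces equality
  have hfn : ∑ s, f s ^ 2 = 1 := by
    rw [hf]; exact (Equiv.sum_comp (w⁻¹) fun s => φ' s ^ 2).trans hn'
  have heq : ∀ s, φ s = f s := by
    by_contra hne
    push Not at hne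
    obtain ⟨s₀, hs₀⟩ := hne
    set m : Fin D.nroots → ℝ := fun s => (φ s + f s) / 2 with hm
    have hlm : S.IsLin m := by
      obtain ⟨ψ, hψ⟩ := hl
      obtain ⟨ψ', hψ'⟩ := hlf
      exact ⟨(AddMonoidHom.mulRight (1 / 2 : ℝ)).comp (ψ + ψ'), fun s => by
        simp only [hm, hψ, hψ', AddMonoidHom.coe_comp, Function.comp_apply, AddMonoidHom.coe_mulRight,
          AddMonoidHom.add_apply]
        ring⟩
    set σ := ∑ s, m s ^ 2 with hσ
    have hσ1 : σ < 1 := by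
      have hid : σ + ∑ s, ((φ s - f s) / 2) ^ 2 = 1 := by
        rw [hσ, ← Finset.sum_add_distrib]
        calc ∑ s, (m s ^ 2 + ((φ s - f s) / 2) ^ 2) = ∑ s, ((1 / 2 : ℝ) * φ s ^ 2 + (1 / 2) * f s ^ 2) :=
              Finset.sum_congr rfl fun s _ => by simp only [hm]; ring
          _ = 1 := by rw [Finset.sum_add_distrib, ← Finset.mul_sum, ← Finset.mul_sum, hn, hfn]; norm_num
      have hpos : 0 < ∑ s, ((φ s - f s) / 2) ^ 2 :=
        Finset.sum_pos' (fun s _ => sq_nonneg _) ⟨s₀, Finset.mem_univ _, by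
          have : φ s₀ - f s₀ ≠ 0 := sub_ne_zero.2 hs₀
          positivity⟩
      linarith
    obtain ⟨w₁, hw₁W, hdom⟩ := S.exists_dominant hlm
    have hσ0 : 0 < σ := by
      by_contra hle
      have h0 := (Finset.sum_eq_zero_iff_of_nonneg (fun s _ => sq_nonneg (m s))).1
        (le_antisymm (not_lt.1 hle) (Finset.sum_nonneg fun s _ => sq_nonneg _))
      have hbot : S.genBy F Cc ≤ ⊥ := S.genBy_le fun r _ _ h3 _ => by
        obtain ⟨⟨hr, a1⟩, _, a2⟩ := h3
        have := pow_eq_zero_iff (n := 2) (by norm_num) |>.1 (h0 ⟨r, hr⟩ (Finset.mem_univ _))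
        simp only [hm] at this
        exfalso; linarith
      have hbot' : ∀ y ∈ R, g⁻¹ * y * g ∈ S.genBy F (S.upSet φ (c + 1)) := fun y hy => by
        have := Subgroup.mem_bot.1 (hbot (hR₁ y hy))
        have e : y = 1 := by
          have h2 := congrArg (fun z => g₁ * z * g₁⁻¹) this
          simpa [mul_assoc] using h2
        rw [e, mul_one, inv_mul_cancel]
        exact Subgroup.one_mem _
      have := hmax g φ (c + 1) ⟨hg, ⟨hl, hd, hn⟩, hbot'⟩
      linarith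
    obtain ⟨L₁, hL₁, rfl⟩ := S.exists_wprod hw₁W
    set r := (Real.sqrt σ)⁻¹ with hr
    have hsq : 0 < Real.sqrt σ := Real.sqrt_pos.2 hσ0
    set φ₁ : Fin D.nroots → ℝ := fun s => r * m (S.wprod L₁ s) with hφ₁
    have hdom₁ : S.IsUnitDom φ₁ := by
      refine ⟨?_, fun s hs => mul_nonneg (inv_nonneg.2 hsq.le) (hdom s hs), ?_⟩
      · obtain ⟨ψ, hψ⟩ := S.lin_weyl hlm hw₁W
        exact ⟨(AddMonoidHom.mulLeft r).comp ψ, fun s => by
          simp only [hφ₁, AddMonoidHom.coe_comp, Function.comp_apply, AddMonoidHom.coe_mulLeft]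
          exact congrArg (r * ·) (hψ s)⟩
      · simp only [hφ₁, mul_pow, ← Finset.mul_sum]
        rw [(Equiv.sum_comp (S.wprod L₁) fun s => m s ^ 2), ← hσ, hr, inv_pow, Real.sq_sqrt hσ0.le,
          inv_mul_cancel₀ hσ0.ne']
    set n₁ := S.nw F L₁
    have hn₁ : n₁ ∈ D.monomialSubgroup F := S.nw_mem_mono hL₁
    have hbetter : S.Admit R (g₁ * n₁) φ₁ (r * c) := by
      refine ⟨mul_mem (mul_mem hg (S.borel_le_group hb)) (S.mono_le_group hn₁), hdom₁, fun y hy => ?_⟩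
      have := S.conj_genBy_acts (S.acts_inv_mono hn₁ (S.acts_nw hL₁)) (Q := S.upSet φ₁ (r * c)) (fun s _ hP => by
        obtain ⟨⟨_, a1⟩, _, a2⟩ := hP
        have hms : c ≤ m s := by simp only [hm]; linarith
        have hval : m (S.wprod L₁ ((S.wprod L₁)⁻¹ s)) = m s := by
          rw [← Equiv.Perm.mul_apply, mul_inv_cancel, Equiv.Perm.one_apply]
        refine ⟨?_, Fin.is_lt _, ?_⟩
        · by_contra hpn
          have := S.dom_neg (S.lin_weyl hlm hw₁W) hdom hpn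
          simp only [hval] at this
          linarith
        · show r * c ≤ φ₁ ((S.wprod L₁)⁻¹ s)
          simp only [hφ₁, hval]
          exact mul_le_mul_of_nonneg_left hms (inv_nonneg.2 hsq.le)) (hR₁ y hy)
      rwa [inv_inv, show n₁⁻¹ * (g₁⁻¹ * y * g₁) * n₁ = (g₁ * n₁)⁻¹ * y * (g₁ * n₁) by group] at this
    have hle := hmax _ _ _ hbetter
    have h1 : Real.sqrt σ < 1 := by
      rw [← Real.sqrt_one]; exact Real.sqrt_lt_sqrt hσ0.le hσ1
    have h2 : 1 < r := by rw [hr]; exact one_lt_inv₀ hsq |>.2 h1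
    nlinarith
  obtain ⟨L, hL, hLw, hlen⟩ := S.exists_reduced_weyl hwW
  have hmem : ∀ q ∈ L, q ∈ S.zeroSet φ :=
    (S.weyl_dominant L hL (by rw [hlen, hLw]) φ φ' hl hl' hd hd' fun s => by
      rw [hLw, heq]
      show φ' ((w⁻¹) (w s)) = φ' s
      rw [← Equiv.Perm.mul_apply, inv_mul_cancel, Equiv.Perm.one_apply]).2
  have hBP : ∀ {x}, x ∈ D.borelSubgroup F → x ∈ D.parabolicSubgroup F (S.zeroSet φ) :=
    fun hx => Subgroup.mem_sup_left hx
  have hnP : n ∈ D.parabolicSubgroup F (S.zeroSet φ) := by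
    have hd₂ : n * (S.nw F L)⁻¹ ∈ D.diagonalSubgroup F := by
      refine S.mem_diag_of_pos (mul_mem hnN (inv_mem (S.nw_mem_mono hL)))
        (S.acts_mul hw (S.acts_inv_mono (S.nw_mem_mono hL) (S.acts_nw hL))) fun r hr => ?_
      rw [hLw, mul_inv_cancel]; exact hr
    have hnw : S.nw F L ∈ D.parabolicSubgroup F (S.zeroSet φ) := by
      refine Subgroup.list_prod_mem _ fun x hx => ?_
      obtain ⟨q, hq, rfl⟩ := List.mem_map.1 hx
      exact Subgroup.mem_sup_right (Subgroup.subset_closure ⟨q, hmem q hq, hL q hq, S.coe_nU _ _⟩)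
    have := mul_mem (hBP (Subgroup.mem_sup_right hd₂)) hnw
    rwa [inv_mul_cancel_right] at this
  rw [e]
  exact mul_mem (mul_mem (hBP hb) hnP) (hBP hb')

end CfsgLib.Chev.Sys
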